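import Cfsg.Agent.H18.EK.Val

/-!
# S5745, socle `T ^ k` in cross characteristic: the 2-3-adic sieve (helper18)

`odd_mem` : `q` odd, `n ∣ |G|`, `|G| ≤ B`, `2 ^ V₂ ∣ n`, `3 ^ V₃ ∣ n` : then `q = 3 ^ i` or `q ≡ ± 1` modulo `2 ^ (e - 1)`
and modulo `3 ^ v`, where `(e - 1) c₂ + d₂ < V₂`, `(v - 1) c₃ + d₃ < V₃`; a check of few `q`.
`even_mem` : `q = 2 ^ i`.
-/

set_option autoImplicit false

namespace Cfsg.Agent.H18.EK

open Cfsg.Agent.H746.EK

theorem lt_of_bound {f : Fam} {B Q : ℕ} (hm : 3 * B < nm f Q) {q C : ℕ} (hC : dn f q * C = nm f q) (hB : C ≤ B) :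
    q < Q := by
  by_contra hcon
  push Not at hcon
  have h1 := nm_mono f hcon
  have h2 : dn f q * C ≤ 3 * B := Nat.mul_le_mul (dn_le f q) hB
  omega

theorem e_le {f : Fam} {q e V : ℕ} (ho : Odd q) (h1 : 1 < q) (hV : c2 f * (e - 1) + d2 f < V) (h : 2 ^ V ∣ nm f q) :
    2 ^ e ∣ q ^ 2 - 1 := by
  obtain ⟨h2, h3⟩ := v2_le f ho h1
  have h4 : V ≤ padicValNat 2 (nm f q) := (padicValNat_dvd_iff_le h2).1 h
  rw [padicValNat_dvd_iff_le (sub_ne h1 (by norm_num))]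
  by_contra hcon
  have h5 : padicValNat 2 (q ^ 2 - 1) ≤ e - 1 := by omega
  have := Nat.mul_le_mul_left (c2 f) h5
  omega

theorem v_le {f : Fam} {q v V : ℕ} (ho : ¬ 3 ∣ q) (h1 : 1 < q) (hV : c3 f * (v - 1) + d3 f < V) (h : 3 ^ V ∣ nm f q) :
    3 ^ v ∣ q ^ 2 - 1 := by
  obtain ⟨h2, h3⟩ := v3_le f ho h1
  have h4 : V ≤ padicValNat 3 (nm f q) := (padicValNat_dvd_iff_le h2).1 h
  rw [padicValNat_dvd_iff_le (sub_ne h1 (by norm_num))]
  by_contra hcon
  have h5 : padicValNat 3 (q ^ 2 - 1) ≤ v - 1 := by omega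
  have := Nat.mul_le_mul_left (c3 f) h5
  omega

theorem pm2 {q e : ℕ} (ho : Odd q) (h : 2 ^ e ∣ q ^ 2 - 1) : q % 2 ^ (e - 1) = 1 % 2 ^ (e - 1) ∨
    (q + 1) % 2 ^ (e - 1) = 0 := by
  rcases Nat.lt_or_ge e 2 with h2 | h2
  · have : e - 1 = 0 := by omega
    rw [this]
    left
    simp [Nat.mod_one]
  · obtain ⟨k, rfl⟩ := Nat.exists_eq_add_of_le' h2
    rw [show k + 2 - 1 = k + 1 by omega]
    obtain ⟨j, hj | hj⟩ := H805.EPX.pm ho h
    · left
      rw [hj]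
      exact Nat.mul_add_mod _ _ _
    · right
      rw [hj]
      exact Nat.mul_mod_right _ _

theorem pm3 {q v : ℕ} (h1 : 1 ≤ q) (h : 3 ^ v ∣ q ^ 2 - 1) : q % 3 ^ v = 1 % 3 ^ v ∨ (q + 1) % 3 ^ v = 0 := by
  have e : q ^ 2 - 1 = (q - 1) * (q + 1) := by
    zify [h1, Nat.one_le_pow 2 q (by omega)]
    ring
  rw [e] at h
  by_cases h3 : 3 ∣ q - 1
  · left
    have hc : Nat.Coprime (3 ^ v) (q + 1) := by
      apply Nat.Coprime.pow_left
      rw [Nat.Prime.coprime_iff_not_dvd Nat.prime_three]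
      omega
    obtain ⟨j, hj⟩ := Nat.Coprime.dvd_of_dvd_mul_right hc h
    have : q = 3 ^ v * j + 1 := by omega
    rw [this]
    exact Nat.mul_add_mod _ _ _
  · right
    have hc : Nat.Coprime (3 ^ v) (q - 1) := by
      apply Nat.Coprime.pow_left
      rwa [Nat.Prime.coprime_iff_not_dvd Nat.prime_three]
    exact Nat.mod_eq_zero_of_dvd (Nat.Coprime.dvd_of_dvd_mul_left hc h)

/-- a single `q` is excluded or in the list -/
def okn (f : Fam) (n B : ℕ) (L : List ℕ) (q : ℕ) : Bool :=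
  Nat.ble q 1 || !(Nat.beq (nm f q % (dn f q * n)) 0) || Nat.blt (dn f q * B) (nm f q) || L.any (Nat.beq q)

theorem mem_of_okn {f : Fam} {n B : ℕ} {L : List ℕ} {q : ℕ} (h : okn f n B L q = true) (hq : 1 < q)
    {C : ℕ} (hC : dn f q * C = nm f q) (hn : n ∣ C) (hB : C ≤ B) : q ∈ L := by
  unfold okn at h
  rw [Bool.or_eq_true, Bool.or_eq_true, Bool.or_eq_true] at h
  rcases h with ((h | h) | h) | h
  · have := Nat.le_of_ble_eq_true h
    omega
  · exfalso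
    have h1 : nm f q % (dn f q * n) = 0 := by
      rw [← hC]
      exact Nat.mod_eq_zero_of_dvd (Nat.mul_dvd_mul_left _ hn)
    rw [h1] at h
    exact absurd h (by decide)
  · exfalso
    have h1 : dn f q * B < nm f q := by
      unfold Nat.blt at h
      exact Nat.le_of_ble_eq_true h
    have h2 : dn f q * C ≤ dn f q * B := Nat.mul_le_mul_left _ hB
    omega
  · obtain ⟨x, hx, h1⟩ := List.any_eq_true.1 h
    rw [Nat.beq_eq] at h1
    exact h1 ▸ hx

/-- the loop over powers: `a ^ i`, `i ≥ i₀`, until the bound is exceeded -/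
def goP (f : Fam) (n B : ℕ) (L : List ℕ) (a : ℕ) : ℕ → ℕ → Bool
  | 0, q => Nat.blt (3 * B) (nm f q)
  | m + 1, q => Nat.blt (3 * B) (nm f q) || (okn f n B L q && goP f n B L a m (q * a))

theorem goP_mem {f : Fam} {n B : ℕ} {L : List ℕ} {a : ℕ} (ha : 1 < a) {m q0 i : ℕ}
    (h : goP f n B L a m q0 = true) (hq0 : 1 < q0) {C : ℕ} (hC : dn f (q0 * a ^ i) * C = nm f (q0 * a ^ i))
    (hn : n ∣ C) (hB : C ≤ B) : q0 * a ^ i ∈ L := by
  have key : ∀ q1, Nat.blt (3 * B) (nm f q1) = true → ∀ {j}, dn f (q1 * a ^ j) * C = nm f (q1 * a ^ j) → False := by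
    intro q1 h1 j hj
    have h2 : 3 * B < nm f q1 := by
      unfold Nat.blt at h1
      exact Nat.le_of_ble_eq_true h1
    have h3 := lt_of_bound h2 hj hB
    have : 1 ≤ a ^ j := Nat.one_le_pow _ _ (by omega)
    have := Nat.le_mul_of_pos_right q1 this
    omega
  induction m generalizing q0 i with
  | zero =>
    rw [goP] at h
    exact (key q0 h hC).elim
  | succ m ih =>
    rw [goP, Bool.or_eq_true, Bool.and_eq_true] at h
    rcases h with h | ⟨h, h'⟩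
    · exact (key q0 h hC).elim
    · rcases i with _ | i
      · rw [pow_zero, mul_one] at hC ⊢
        exact mem_of_okn h hq0 hC hn hB
      · rw [pow_succ', ← mul_assoc] at hC ⊢
        exact ih h' (by nlinarith) hC

/-- **`q` even** -/
theorem even_mem {f : Fam} {n B : ℕ} {L : List ℕ} {m : ℕ} (h : goP f n B L 2 m 2 = true) {q : ℕ} (hq : IsPrimePow q)
    (he : Even q) {C : ℕ} (hC : dn f q * C = nm f q) (hn : n ∣ C) (hB : C ≤ B) : q ∈ L := by
  obtain ⟨r, i, hr, hi, rfl⟩ := hq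
  have h2 := Nat.prime_two.dvd_of_dvd_pow (even_iff_two_dvd.1 he)
  rw [Nat.prime_dvd_prime_iff_eq Nat.prime_two hr.nat_prime] at h2
  subst h2
  obtain ⟨i, rfl⟩ := Nat.exists_eq_add_of_le' hi
  rw [Nat.pow_succ'] at hC ⊢
  exact goP_mem (by norm_num) h (by norm_num) hC hn hB

/-- the residues -/
def rok (A Z : ℕ) : List ℕ → Bool
  | [r1, r2, r3, r4] => Nat.beq (r1 % A) (1 % A) && Nat.beq (r1 % Z) (1 % Z) &&
      (Nat.beq ((r2 + 1) % A) 0 && Nat.beq ((r2 + 1) % Z) 0) &&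
      (Nat.beq (r3 % A) (1 % A) && Nat.beq ((r3 + 1) % Z) 0) &&
      (Nat.beq ((r4 + 1) % A) 0 && Nat.beq (r4 % Z) (1 % Z)) &&
      Nat.blt r1 (A * Z) && Nat.blt r2 (A * Z) && Nat.blt r3 (A * Z) && Nat.blt r4 (A * Z)
  | _ => false

theorem mod_cr {A Z a b : ℕ} (hc : Nat.Coprime A Z) (ha : a % A = b % A) (hz : a % Z = b % Z) (hb : b < A * Z) :
    a % (A * Z) = b := by
  have := (Nat.modEq_and_modEq_iff_modEq_mul hc).1 ⟨ha, hz⟩
  unfold Nat.ModEq at this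
  rw [this, Nat.mod_eq_of_lt hb]

theorem mod_succ_cr {A a b : ℕ} (h : (b + 1) % A = 0) (h' : (a + 1) % A = 0) : a % A = b % A := by
  have : (a + 1) ≡ (b + 1) [MOD A] := by
    unfold Nat.ModEq
    rw [h, h']
  exact Nat.ModEq.add_right_cancel' 1 this

theorem rok_mem {A Z : ℕ} {R : List ℕ} (h : rok A Z R = true) (hc : Nat.Coprime A Z) {q : ℕ}
    (h2 : q % A = 1 % A ∨ (q + 1) % A = 0) (h3 : q % Z = 1 % Z ∨ (q + 1) % Z = 0) : q % (A * Z) ∈ R := by
  match R, h with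
  | [r1, r2, r3, r4], h =>
    simp only [rok, Bool.and_eq_true, Nat.beq_eq, Nat.blt_eq] at h
    obtain ⟨⟨⟨⟨⟨⟨⟨⟨a1, a2⟩, b1, b2⟩, c1, c2⟩, d1, d2⟩, l1⟩, l2⟩, l3⟩, l4⟩ := h
    simp only [List.mem_cons, List.not_mem_nil, or_false]
    rcases h2 with h2 | h2 <;> rcases h3 with h3 | h3
    · left; exact mod_cr hc (h2.trans a1.symm) (h3.trans a2.symm) l1
    · right; right; left; exact mod_cr hc (h2.trans c1.symm) (mod_succ_cr c2 h3) l3
    · right; right; right; exact mod_cr hc (mod_succ_cr d1 h2) (h3.trans d2.symm) l4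
    · right; left; exact mod_cr hc (mod_succ_cr b1 h2) (mod_succ_cr b2 h3) l2

/-- the loop over `M i + r`, `r ∈ R` -/
def goR (f : Fam) (n B : ℕ) (L : List ℕ) (M : ℕ) (R : List ℕ) : ℕ → ℕ → Bool
  | 0, x => Nat.blt (3 * B) (nm f x)
  | m + 1, x => Nat.blt (3 * B) (nm f x) || (R.all (fun r => okn f n B L (x + r)) && goR f n B L M R m (x + M))

theorem goR_mem {f : Fam} {n B : ℕ} {L : List ℕ} {M : ℕ} {R : List ℕ} {m x i r : ℕ}
    (h : goR f n B L M R m x = true) (hr : r ∈ R) (h1 : 1 < x + M * i + r) {C : ℕ}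
    (hC : dn f (x + M * i + r) * C = nm f (x + M * i + r)) (hn : n ∣ C) (hB : C ≤ B) : x + M * i + r ∈ L := by
  have key : ∀ x, Nat.blt (3 * B) (nm f x) = true → ∀ {y}, dn f (x + y) * C = nm f (x + y) → False := by
    intro x h1 y hy
    have h2 : 3 * B < nm f x := by
      unfold Nat.blt at h1
      exact Nat.le_of_ble_eq_true h1
    have h3 := lt_of_bound h2 hy hB
    omega
  induction m generalizing x i with
  | zero =>
    rw [goR] at h
    rw [Nat.add_assoc] at hC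
    exact (key x h hC).elim
  | succ m ih =>
    rw [goR, Bool.or_eq_true, Bool.and_eq_true] at h
    rcases h with h | ⟨h, h'⟩
    · rw [Nat.add_assoc] at hC
      exact (key x h hC).elim
    · rcases i with _ | i
      · rw [mul_zero, add_zero] at hC h1 ⊢
        exact mem_of_okn (List.all_eq_true.1 h r hr) h1 hC hn hB
      · have e : x + M * (i + 1) + r = (x + M) + M * i + r := by ring
        rw [e] at hC h1 ⊢
        exact ih h' h1 hC

/-- the residue `1` mod `2 ^ a`, `-1` mod `Z` -/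
def crt (a Z : ℕ) : ℕ := (1 + 2 ^ a * ((2 * (Z - ((Z + 1) / 2) ^ a % Z)) % Z)) % (2 ^ a * Z)

/-- the residues -/
def Rof (a Z : ℕ) : List ℕ :=
  [1 % (2 ^ a * Z), 2 ^ a * Z - 1, crt a Z, (2 ^ a * Z - crt a Z) % (2 ^ a * Z)]

/-- the exponent `e` -/
def eof (c d V : ℕ) : ℕ := if V ≤ d then 0 else (V - d - 1) / c + 1

theorem eof_spec {c d V : ℕ} : eof c d V = 0 ∨ c * (eof c d V - 1) + d < V := by
  unfold eof
  split_ifs with h
  · exact Or.inl rfl
  · right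
    have := Nat.mul_div_le (V - d - 1) c
    rw [Nat.add_sub_cancel]
    omega

/-- the check for `q` odd: `V₂`, `V₃`, fuel -/
def chkO (f : Fam) (n B : ℕ) (L : List ℕ) (V2 V3 m : ℕ) : Bool :=
  Nat.beq (n % 2 ^ V2) 0 && Nat.beq (n % 3 ^ V3) 0 &&
    rok (2 ^ (eof (c2 f) (d2 f) V2 - 1)) (3 ^ eof (c3 f) (d3 f) V3)
      (Rof (eof (c2 f) (d2 f) V2 - 1) (3 ^ eof (c3 f) (d3 f) V3)) && goP f n B L 3 m 3 &&
    goR f n B L (2 ^ (eof (c2 f) (d2 f) V2 - 1) * 3 ^ eof (c3 f) (d3 f) V3)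
      (Rof (eof (c2 f) (d2 f) V2 - 1) (3 ^ eof (c3 f) (d3 f) V3)) m 0

/-- **`q` odd** -/
theorem odd_mem {f : Fam} {n B : ℕ} {L : List ℕ} {V2 V3 : ℕ} {m : ℕ}
    (h : chkO f n B L V2 V3 m = true) {q : ℕ} (hq : IsPrimePow q) (ho : Odd q) {C : ℕ}
    (hC : dn f q * C = nm f q) (hn : n ∣ C) (hB : C ≤ B) : q ∈ L := by
  simp only [chkO, Bool.and_eq_true, Nat.beq_eq] at h
  obtain ⟨⟨⟨⟨k3, k4⟩, k5⟩, k6⟩, k7⟩ := h
  have h1 := hq.one_lt
  by_cases h3 : 3 ∣ q
  · obtain ⟨r, i, hr, hi, rfl⟩ := hq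
    have h2 := Nat.prime_three.dvd_of_dvd_pow h3
    rw [Nat.prime_dvd_prime_iff_eq Nat.prime_three hr.nat_prime] at h2
    subst h2
    obtain ⟨i, rfl⟩ := Nat.exists_eq_add_of_le' hi
    rw [Nat.pow_succ'] at hC ⊢
    exact goP_mem (by norm_num) k6 (by norm_num) hC hn hB
  · have hnn : n ∣ nm f q := hC ▸ hn.mul_left _
    have b1 : 2 ^ eof (c2 f) (d2 f) V2 ∣ q ^ 2 - 1 := by
      rcases eof_spec (c := c2 f) (d := d2 f) (V := V2) with h0 | h0
      · rw [h0]; simp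
      · exact e_le ho h1 h0 ((Nat.dvd_of_mod_eq_zero k3).trans hnn)
    have b2 : 3 ^ eof (c3 f) (d3 f) V3 ∣ q ^ 2 - 1 := by
      rcases eof_spec (c := c3 f) (d := d3 f) (V := V3) with h0 | h0
      · rw [h0]; simp
      · exact v_le h3 h1 h0 ((Nat.dvd_of_mod_eq_zero k4).trans hnn)
    have a1 := pm2 ho b1
    have a2 := pm3 h1.le b2
    have a3 := rok_mem k5 (Nat.Coprime.pow _ _ (by norm_num)) a1 a2
    set M := 2 ^ (eof (c2 f) (d2 f) V2 - 1) * 3 ^ eof (c3 f) (d3 f) V3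
    have e1 : q = 0 + M * (q / M) + q % M := by
      rw [zero_add]
      exact (Nat.div_add_mod q M).symm
    have := goR_mem (i := q / M) k7 a3 (by rw [← e1]; exact h1) (C := C) (by rw [← e1]; exact hC) hn hB
    rwa [← e1] at this

/-- `Bk` with a numeral `c = Lc t` -/
def Bn (c t a k : ℕ) : ℕ := (1 + (c ^ k + Ik t a k) * (2 * Dk t k)) * (a ^ k * k.factorial)

theorem Bk_eq {c t : ℕ} (h : Lc t = c) (a k : ℕ) : Bk t a k = Bn c t a k := by
  subst h
  rfl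

/-- the `q` of the row `k` -/
def rowK (L : List (ℕ × ℕ)) (k : ℕ) : List ℕ := (L.filter fun x => x.1 == k).map Prod.snd

theorem mem_rowK {L : List (ℕ × ℕ)} {k q : ℕ} (h : q ∈ rowK L k) : (k, q) ∈ L := by
  rw [rowK, List.mem_map] at h
  obtain ⟨⟨x, y⟩, h1, rfl⟩ := h
  rw [List.mem_filter] at h1
  have : x = k := by simpa using h1.2
  exact this ▸ h1.1

/-- the check for `2 ≤ k ≤ K` (`q` odd: `k ≤ Ko`) -/
def chkT (f : Fam) (t c a v2 v3 : ℕ) (L : List (ℕ × ℕ)) (m Ko : ℕ) : ℕ → Bool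
  | 0 => true
  | k + 1 => (Nat.ble (k + 1) 1 || (goP f (t ^ (k + 1)) (Bn c t a (k + 1)) (rowK L (k + 1)) 2 m 2 &&
      (Nat.blt Ko (k + 1) || chkO f (t ^ (k + 1)) (Bn c t a (k + 1)) (rowK L (k + 1)) (v2 * (k + 1)) (v3 * (k + 1)) m)))
      && chkT f t c a v2 v3 L m Ko k

/-- **the table** -/
theorem chkT_mem {f : Fam} {t c a v2 v3 : ℕ} {L : List (ℕ × ℕ)} {m Ko K : ℕ}
    (h : chkT f t c a v2 v3 L m Ko K = true) (hc : Lc t = c) {k : ℕ} (h2 : 2 ≤ k) (hk : k ≤ K) {q : ℕ}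
    (hq : IsPrimePow q) (ho : Odd q → k ≤ Ko) {C : ℕ} (hC : dn f q * C = nm f q) (hd : t ^ k ∣ C)
    (hB : C ≤ Bk t a k) : (k, q) ∈ L := by
  induction K with
  | zero => omega
  | succ K ih =>
    rw [chkT, Bool.and_eq_true, Bool.or_eq_true, Bool.and_eq_true, Bool.or_eq_true] at h
    rcases Nat.lt_or_ge K k with h1 | h1
    · obtain rfl : k = K + 1 := by omega
      obtain ⟨h, -⟩ := h
      rw [Bk_eq hc] at hB
      rcases h with h | ⟨h, h'⟩
      · have := Nat.le_of_ble_eq_true h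
        omega
      · rcases Nat.even_or_odd q with he | hodd
        · exact mem_rowK (even_mem h hq he hC hd hB)
        · rcases h' with h' | h'
          · have h3 : Ko < K + 1 := by
              unfold Nat.blt at h'
              exact Nat.le_of_ble_eq_true h'
            have := ho hodd
            omega
          · exact mem_rowK (odd_mem h' hq hodd hC hd hB)
    · exact ih h.2 h1

end Cfsg.Agent.H18.EK
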