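import Cfsg.Agent.H805.EPX.Sieve2
import Cfsg.Agent.H746.EK.Num

/-!
# S5745, socle `T ^ k` in cross characteristic: 2-adic and 3-adic valuations of the orders (helper18)
-/

set_option autoImplicit false
set_option maxHeartbeats 1000000

namespace Cfsg.Agent.H18.EK

open Cfsg.Agent.H746.EK

/-- `v₂(nm f q) ≤ c2 f * v₂(q² - 1) + d2 f` -/
def c2 : Fam → ℕ
  | .e8 => 8 | .e7 => 7 | .e6 => 6 | .te6 => 6 | .f4 => 4 | .td4 => 2 | .g2 => 2
/-- see `c2` -/
def d2 : Fam → ℕ
  | .e8 => 6 | .e7 => 3 | .e6 => 3 | .te6 => 3 | .f4 => 3 | .td4 => 0 | .g2 => 0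
/-- `v₃(nm f q) ≤ c3 f * v₃(q² - 1) + d3 f` -/
def c3 : Fam → ℕ
  | .e8 => 8 | .e7 => 7 | .e6 => 6 | .te6 => 6 | .f4 => 4 | .td4 => 2 | .g2 => 2
/-- see `c3` -/
def d3 : Fam → ℕ
  | .e8 => 5 | .e7 => 4 | .e6 => 4 | .te6 => 4 | .f4 => 2 | .td4 => 2 | .g2 => 1

theorem v2_even {q n m : ℕ} (ho : Odd q) (h1 : 1 < q) (hn : n ≠ 0) (he : Even n) (hm : padicValNat 2 n = m) :
    padicValNat 2 (q ^ n - 1) = padicValNat 2 (q ^ 2 - 1) + (m - 1) := by
  have hd : 2 ∣ q - 1 := by
    obtain ⟨x, rfl⟩ := ho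
    exact ⟨x, by omega⟩
  have hnd : ¬ 2 ∣ q := by
    obtain ⟨x, rfl⟩ := ho
    omega
  have a := padicValNat.pow_two_sub_pow (x := q) (y := 1) h1 hd hnd hn he
  have b := padicValNat.pow_two_sub_pow (x := q) (y := 1) h1 hd hnd (n := 2) (by norm_num) (by norm_num)
  have c : padicValNat 2 2 = 1 := padicValNat_self
  rw [one_pow] at a b
  have hm1 : 1 ≤ m := by
    rw [← hm]
    exact one_le_padicValNat_of_dvd hn (even_iff_two_dvd.1 he)
  omega

theorem v2_val {n : ℕ} (m : ℕ) (k : ℕ) (h : n = 2 ^ m * k) (hk : ¬ 2 ∣ k) (hn : n ≠ 0) : padicValNat 2 n = m := by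
  have hk0 : k ≠ 0 := by rintro rfl; simp at h; exact hn h
  rw [h, padicValNat.mul (by positivity) hk0, padicValNat.prime_pow, padicValNat.eq_zero_of_not_dvd hk, add_zero]

theorem v3_val {n : ℕ} (m : ℕ) (k : ℕ) (h : n = 3 ^ m * k) (hk : ¬ 3 ∣ k) (hn : n ≠ 0) : padicValNat 3 n = m := by
  have hk0 : k ≠ 0 := by rintro rfl; simp at h; exact hn h
  rw [h, padicValNat.mul (by positivity) hk0, padicValNat.prime_pow, padicValNat.eq_zero_of_not_dvd hk, add_zero]

theorem v2_odd_sub {q n : ℕ} (ho : Odd q) (h1 : 1 < q) (hn : Odd n) :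
    padicValNat 2 (q ^ n - 1) + 1 ≤ padicValNat 2 (q ^ 2 - 1) := by
  have hn0 : n ≠ 0 := by rintro rfl; exact absurd hn (by decide)
  have e1 : padicValNat 2 (q ^ (2 * n) - 1) = padicValNat 2 (q ^ 2 - 1) := by
    rw [v2_even ho h1 (by omega) (even_two_mul n) (v2_val 1 n (by ring) (by
      intro h; exact (Nat.not_even_iff_odd.2 hn) (even_iff_two_dvd.2 h)) (by omega))]
    rfl
  have h2 : 1 < q ^ n := Nat.one_lt_pow hn0 h1
  have e2 : q ^ (2 * n) - 1 = (q ^ n - 1) * (q ^ n + 1) := by
    rw [show q ^ (2 * n) = (q ^ n) ^ 2 by rw [← pow_mul, mul_comm]]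
    zify [h2.le, Nat.one_le_pow 2 (q ^ n) (by omega)]
    ring
  rw [e2, padicValNat.mul (by omega) (by omega)] at e1
  have h3 : 1 ≤ padicValNat 2 (q ^ n + 1) :=
    one_le_padicValNat_of_dvd (by omega) (even_iff_two_dvd.1 ((ho.pow).add_odd odd_one))
  omega

theorem v2_odd_add {q n : ℕ} (ho : Odd q) (h1 : 1 < q) (hn : Odd n) :
    padicValNat 2 (q ^ n + 1) + 1 ≤ padicValNat 2 (q ^ 2 - 1) := by
  have hn0 : n ≠ 0 := by rintro rfl; exact absurd hn (by decide)
  have e1 : padicValNat 2 (q ^ (2 * n) - 1) = padicValNat 2 (q ^ 2 - 1) := by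
    rw [v2_even ho h1 (by omega) (even_two_mul n) (v2_val 1 n (by ring) (by
      intro h; exact (Nat.not_even_iff_odd.2 hn) (even_iff_two_dvd.2 h)) (by omega))]
    rfl
  have h2 : 1 < q ^ n := Nat.one_lt_pow hn0 h1
  have e2 : q ^ (2 * n) - 1 = (q ^ n - 1) * (q ^ n + 1) := by
    rw [show q ^ (2 * n) = (q ^ n) ^ 2 by rw [← pow_mul, mul_comm]]
    zify [h2.le, Nat.one_le_pow 2 (q ^ n) (by omega)]
    ring
  rw [e2, padicValNat.mul (by omega) (by omega)] at e1
  have h3 : 1 ≤ padicValNat 2 (q ^ n - 1) :=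
    one_le_padicValNat_of_dvd (by omega) (even_iff_two_dvd.1 (Nat.Odd.sub_odd (ho.pow (n := n)) odd_one))
  omega

instance : Fact (Nat.Prime 3) := ⟨Nat.prime_three⟩

theorem three_dvd {q : ℕ} (h3 : ¬ 3 ∣ q) : 3 ∣ q ^ 2 - 1 := by
  have h : q % 3 = 1 ∨ q % 3 = 2 := by omega
  have h4 : (q ^ 2) % 3 = 1 := by
    rw [Nat.pow_mod]
    rcases h with h | h <;> rw [h]
  omega

theorem v3_even {q n m : ℕ} (h3 : ¬ 3 ∣ q) (h1 : 1 < q) (hn : n ≠ 0) (hm : padicValNat 3 n = m) :
    padicValNat 3 (q ^ (2 * n) - 1) = padicValNat 3 (q ^ 2 - 1) + m := by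
  have a := padicValNat.pow_sub_pow (x := q ^ 2) (y := 1) (p := 3) (by decide) (Nat.one_lt_pow (by norm_num) h1)
    (three_dvd h3) (fun h => h3 (Nat.prime_three.dvd_of_dvd_pow h)) hn
  rw [one_pow, ← pow_mul, hm] at a
  exact a

theorem v3_sub {q n m : ℕ} (h3 : ¬ 3 ∣ q) (h1 : 1 < q) (hn : Odd n) (hm : padicValNat 3 n = m) :
    padicValNat 3 (q ^ n - 1) ≤ padicValNat 3 (q ^ 2 - 1) + m := by
  have hn0 : n ≠ 0 := by rintro rfl; exact absurd hn (by decide)
  have h := v3_even h3 h1 hn0 hm
  rw [← h]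
  have h2 : 1 < q ^ n := Nat.one_lt_pow hn0 h1
  have e2 : q ^ (2 * n) - 1 = (q ^ n - 1) * (q ^ n + 1) := by
    rw [show q ^ (2 * n) = (q ^ n) ^ 2 by rw [← pow_mul, mul_comm]]
    zify [h2.le, Nat.one_le_pow 2 (q ^ n) (by omega)]
    ring
  rw [e2, padicValNat.mul (by omega) (by omega)]
  omega

theorem v3_add {q n m : ℕ} (h3 : ¬ 3 ∣ q) (h1 : 1 < q) (hn : Odd n) (hm : padicValNat 3 n = m) :
    padicValNat 3 (q ^ n + 1) ≤ padicValNat 3 (q ^ 2 - 1) + m := by
  have hn0 : n ≠ 0 := by rintro rfl; exact absurd hn (by decide)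
  have h := v3_even h3 h1 hn0 hm
  rw [← h]
  have h2 : 1 < q ^ n := Nat.one_lt_pow hn0 h1
  have e2 : q ^ (2 * n) - 1 = (q ^ n - 1) * (q ^ n + 1) := by
    rw [show q ^ (2 * n) = (q ^ n) ^ 2 by rw [← pow_mul, mul_comm]]
    zify [h2.le, Nat.one_le_pow 2 (q ^ n) (by omega)]
    ring
  rw [e2, padicValNat.mul (by omega) (by omega)]
  omega

theorem sub_ne {q n : ℕ} (h1 : 1 < q) (hn : n ≠ 0) : q ^ n - 1 ≠ 0 := by
  have := Nat.one_lt_pow hn h1
  omega

theorem v2_le (f : Fam) {q : ℕ} (ho : Odd q) (h1 : 1 < q) :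
    nm f q ≠ 0 ∧ padicValNat 2 (nm f q) ≤ c2 f * padicValNat 2 (q ^ 2 - 1) + d2 f := by
  have hnd : ¬ 2 ∣ q := fun h => (Nat.not_even_iff_odd.2 ho) (even_iff_two_dvd.2 h)
  have hp (n : ℕ) : padicValNat 2 (q ^ n) = 0 :=
    padicValNat.eq_zero_of_not_dvd fun h => hnd (Nat.prime_two.dvd_of_dvd_pow h)
  have hq (n : ℕ) : q ^ n ≠ 0 := pow_ne_zero _ (by omega)
  have e6 := v2_even ho h1 (n := 6) (by norm_num) (by decide) (v2_val 1 3 (by norm_num) (by norm_num) (by norm_num))
  have e8 := v2_even ho h1 (n := 8) (by norm_num) (by decide) (v2_val 3 1 (by norm_num) (by norm_num) (by norm_num))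
  have e10 := v2_even ho h1 (n := 10) (by norm_num) (by decide) (v2_val 1 5 (by norm_num) (by norm_num) (by norm_num))
  have e12 := v2_even ho h1 (n := 12) (by norm_num) (by decide) (v2_val 2 3 (by norm_num) (by norm_num) (by norm_num))
  have e14 := v2_even ho h1 (n := 14) (by norm_num) (by decide) (v2_val 1 7 (by norm_num) (by norm_num) (by norm_num))
  have e18 := v2_even ho h1 (n := 18) (by norm_num) (by decide) (v2_val 1 9 (by norm_num) (by norm_num) (by norm_num))
  have e20 := v2_even ho h1 (n := 20) (by norm_num) (by decide) (v2_val 2 5 (by norm_num) (by norm_num) (by norm_num))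
  have e24 := v2_even ho h1 (n := 24) (by norm_num) (by decide) (v2_val 3 3 (by norm_num) (by norm_num) (by norm_num))
  have e30 := v2_even ho h1 (n := 30) (by norm_num) (by decide) (v2_val 1 15 (by norm_num) (by norm_num) (by norm_num))
  have n2 := sub_ne h1 (n := 2) (by norm_num)
  have n5 := sub_ne h1 (n := 5) (by norm_num)
  have n9 := sub_ne h1 (n := 9) (by norm_num)
  have n6 := sub_ne h1 (n := 6) (by norm_num)
  have n8 := sub_ne h1 (n := 8) (by norm_num)
  have n10 := sub_ne h1 (n := 10) (by norm_num)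
  have n12 := sub_ne h1 (n := 12) (by norm_num)
  have n14 := sub_ne h1 (n := 14) (by norm_num)
  have n18 := sub_ne h1 (n := 18) (by norm_num)
  have n20 := sub_ne h1 (n := 20) (by norm_num)
  have n24 := sub_ne h1 (n := 24) (by norm_num)
  have n30 := sub_ne h1 (n := 30) (by norm_num)
  cases f
  case e8 =>
    simp only [nm, c2, d2]
    refine ⟨by repeat' first | assumption | exact hq _ | apply mul_ne_zero, ?_⟩
    rw [padicValNat.mul, padicValNat.mul, padicValNat.mul, padicValNat.mul, padicValNat.mul, padicValNat.mul,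
      padicValNat.mul, padicValNat.mul, hp, e8, e12, e14, e18, e20, e24, e30] <;>
      first | omega | (repeat' first | assumption | exact hq _ | apply mul_ne_zero)
  case e7 =>
    simp only [nm, c2, d2]
    refine ⟨by repeat' first | assumption | exact hq _ | apply mul_ne_zero, ?_⟩
    rw [padicValNat.mul, padicValNat.mul, padicValNat.mul, padicValNat.mul, padicValNat.mul, padicValNat.mul,
      padicValNat.mul, hp, e6, e8, e10, e12, e14, e18] <;>
      first | omega | (repeat' first | assumption | exact hq _ | apply mul_ne_zero)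
  case e6 =>
    simp only [nm, c2, d2]
    refine ⟨by repeat' first | assumption | exact hq _ | apply mul_ne_zero, ?_⟩
    have o5 := v2_odd_sub ho h1 (n := 5) (by decide)
    have o9 := v2_odd_sub ho h1 (n := 9) (by decide)
    rw [padicValNat.mul, padicValNat.mul, padicValNat.mul, padicValNat.mul, padicValNat.mul, padicValNat.mul,
      hp, e6, e8, e12] <;>
      first | omega | (repeat' first | assumption | exact hq _ | apply mul_ne_zero)
  case te6 =>
    simp only [nm, c2, d2]
    have m5 : q ^ 5 + 1 ≠ 0 := by omega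
    have m9 : q ^ 9 + 1 ≠ 0 := by omega
    refine ⟨by repeat' first | assumption | exact hq _ | apply mul_ne_zero, ?_⟩
    have o5 := v2_odd_add ho h1 (n := 5) (by decide)
    have o9 := v2_odd_add ho h1 (n := 9) (by decide)
    rw [padicValNat.mul, padicValNat.mul, padicValNat.mul, padicValNat.mul, padicValNat.mul, padicValNat.mul,
      hp, e6, e8, e12] <;>
      first | omega | (repeat' first | assumption | exact hq _ | apply mul_ne_zero)
  case f4 =>
    simp only [nm, c2, d2]
    refine ⟨by repeat' first | assumption | exact hq _ | apply mul_ne_zero, ?_⟩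
    rw [padicValNat.mul, padicValNat.mul, padicValNat.mul, padicValNat.mul,
      hp, e6, e8, e12] <;>
      first | omega | (repeat' first | assumption | exact hq _ | apply mul_ne_zero)
  case td4 =>
    simp only [nm, c2, d2]
    have m8 : q ^ 8 + q ^ 4 + 1 ≠ 0 := by omega
    have o8 : padicValNat 2 (q ^ 8 + q ^ 4 + 1) = 0 := by
      apply padicValNat.eq_zero_of_not_dvd
      intro h
      have := ((ho.pow (n := 8)).add_odd (ho.pow (n := 4))).add_one
      exact (Nat.not_even_iff_odd.2 this) (even_iff_two_dvd.2 h)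
    refine ⟨by repeat' first | assumption | exact hq _ | apply mul_ne_zero, ?_⟩
    rw [padicValNat.mul, padicValNat.mul, padicValNat.mul,
      hp, e6, o8] <;>
      first | omega | (repeat' first | assumption | exact hq _ | apply mul_ne_zero)
  case g2 =>
    simp only [nm, c2, d2]
    refine ⟨by repeat' first | assumption | exact hq _ | apply mul_ne_zero, ?_⟩
    rw [padicValNat.mul, padicValNat.mul, hp, e6] <;>
      first | omega | (repeat' first | assumption | exact hq _ | apply mul_ne_zero)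

theorem v3_le (f : Fam) {q : ℕ} (h3 : ¬ 3 ∣ q) (h1 : 1 < q) :
    nm f q ≠ 0 ∧ padicValNat 3 (nm f q) ≤ c3 f * padicValNat 3 (q ^ 2 - 1) + d3 f := by
  have hp (n : ℕ) : padicValNat 3 (q ^ n) = 0 :=
    padicValNat.eq_zero_of_not_dvd fun h => h3 (Nat.prime_three.dvd_of_dvd_pow h)
  have hq (n : ℕ) : q ^ n ≠ 0 := pow_ne_zero _ (by omega)
  have e6 := v3_even h3 h1 (n := 3) (by norm_num) (v3_val 1 1 (by norm_num) (by norm_num) (by norm_num))
  have e8 := v3_even h3 h1 (n := 4) (by norm_num) (v3_val 0 4 (by norm_num) (by norm_num) (by norm_num))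
  have e10 := v3_even h3 h1 (n := 5) (by norm_num) (v3_val 0 5 (by norm_num) (by norm_num) (by norm_num))
  have e12 := v3_even h3 h1 (n := 6) (by norm_num) (v3_val 1 2 (by norm_num) (by norm_num) (by norm_num))
  have e14 := v3_even h3 h1 (n := 7) (by norm_num) (v3_val 0 7 (by norm_num) (by norm_num) (by norm_num))
  have e18 := v3_even h3 h1 (n := 9) (by norm_num) (v3_val 2 1 (by norm_num) (by norm_num) (by norm_num))
  have e20 := v3_even h3 h1 (n := 10) (by norm_num) (v3_val 0 10 (by norm_num) (by norm_num) (by norm_num))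
  have e24 := v3_even h3 h1 (n := 12) (by norm_num) (v3_val 1 4 (by norm_num) (by norm_num) (by norm_num))
  have e30 := v3_even h3 h1 (n := 15) (by norm_num) (v3_val 1 5 (by norm_num) (by norm_num) (by norm_num))
  norm_num only at e6 e8 e10 e12 e14 e18 e20 e24 e30
  have n2 := sub_ne h1 (n := 2) (by norm_num)
  have n5 := sub_ne h1 (n := 5) (by norm_num)
  have n9 := sub_ne h1 (n := 9) (by norm_num)
  have n6 := sub_ne h1 (n := 6) (by norm_num)
  have n8 := sub_ne h1 (n := 8) (by norm_num)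
  have n10 := sub_ne h1 (n := 10) (by norm_num)
  have n12 := sub_ne h1 (n := 12) (by norm_num)
  have n14 := sub_ne h1 (n := 14) (by norm_num)
  have n18 := sub_ne h1 (n := 18) (by norm_num)
  have n20 := sub_ne h1 (n := 20) (by norm_num)
  have n24 := sub_ne h1 (n := 24) (by norm_num)
  have n30 := sub_ne h1 (n := 30) (by norm_num)
  cases f
  case e8 =>
    simp only [nm, c3, d3]
    refine ⟨by repeat' first | assumption | exact hq _ | apply mul_ne_zero, ?_⟩
    rw [padicValNat.mul, padicValNat.mul, padicValNat.mul, padicValNat.mul, padicValNat.mul, padicValNat.mul,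
      padicValNat.mul, padicValNat.mul, hp, e8, e12, e14, e18, e20, e24, e30] <;>
      first | omega | (repeat' first | assumption | exact hq _ | apply mul_ne_zero)
  case e7 =>
    simp only [nm, c3, d3]
    refine ⟨by repeat' first | assumption | exact hq _ | apply mul_ne_zero, ?_⟩
    rw [padicValNat.mul, padicValNat.mul, padicValNat.mul, padicValNat.mul, padicValNat.mul, padicValNat.mul,
      padicValNat.mul, hp, e6, e8, e10, e12, e14, e18] <;>
      first | omega | (repeat' first | assumption | exact hq _ | apply mul_ne_zero)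
  case e6 =>
    simp only [nm, c3, d3]
    refine ⟨by repeat' first | assumption | exact hq _ | apply mul_ne_zero, ?_⟩
    have o5 := v3_sub h3 h1 (n := 5) (by decide) (v3_val 0 5 (by norm_num) (by norm_num) (by norm_num))
    have o9 := v3_sub h3 h1 (n := 9) (by decide) (v3_val 2 1 (by norm_num) (by norm_num) (by norm_num))
    rw [padicValNat.mul, padicValNat.mul, padicValNat.mul, padicValNat.mul, padicValNat.mul, padicValNat.mul,
      hp, e6, e8, e12] <;>
      first | omega | (repeat' first | assumption | exact hq _ | apply mul_ne_zero)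
  case te6 =>
    simp only [nm, c3, d3]
    have m5 : q ^ 5 + 1 ≠ 0 := by omega
    have m9 : q ^ 9 + 1 ≠ 0 := by omega
    refine ⟨by repeat' first | assumption | exact hq _ | apply mul_ne_zero, ?_⟩
    have o5 := v3_add h3 h1 (n := 5) (by decide) (v3_val 0 5 (by norm_num) (by norm_num) (by norm_num))
    have o9 := v3_add h3 h1 (n := 9) (by decide) (v3_val 2 1 (by norm_num) (by norm_num) (by norm_num))
    rw [padicValNat.mul, padicValNat.mul, padicValNat.mul, padicValNat.mul, padicValNat.mul, padicValNat.mul,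
      hp, e6, e8, e12] <;>
      first | omega | (repeat' first | assumption | exact hq _ | apply mul_ne_zero)
  case f4 =>
    simp only [nm, c3, d3]
    refine ⟨by repeat' first | assumption | exact hq _ | apply mul_ne_zero, ?_⟩
    rw [padicValNat.mul, padicValNat.mul, padicValNat.mul, padicValNat.mul,
      hp, e6, e8, e12] <;>
      first | omega | (repeat' first | assumption | exact hq _ | apply mul_ne_zero)
  case td4 =>
    simp only [nm, c3, d3]
    have m8 : q ^ 8 + q ^ 4 + 1 ≠ 0 := by omega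
    have h2' : 1 < q ^ 4 := Nat.one_lt_pow (by norm_num) h1
    have e4 := v3_even h3 h1 (n := 2) (by norm_num) (v3_val 0 2 (by norm_num) (by norm_num) (by norm_num))
    norm_num only at e4
    have n4 := sub_ne h1 (n := 4) (by norm_num)
    have ee : (q ^ 4 - 1) * (q ^ 8 + q ^ 4 + 1) = q ^ 12 - 1 := by
      zify [h2'.le, Nat.one_le_pow 12 q (by omega)]
      ring
    have e8' : padicValNat 3 (q ^ 8 + q ^ 4 + 1) = 1 := by
      rw [← ee, padicValNat.mul n4 m8] at e12
      omega
    refine ⟨by repeat' first | assumption | exact hq _ | apply mul_ne_zero, ?_⟩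
    rw [padicValNat.mul, padicValNat.mul, padicValNat.mul,
      hp, e6, e8'] <;>
      first | omega | (repeat' first | assumption | exact hq _ | apply mul_ne_zero)
  case g2 =>
    simp only [nm, c3, d3]
    refine ⟨by repeat' first | assumption | exact hq _ | apply mul_ne_zero, ?_⟩
    rw [padicValNat.mul, padicValNat.mul, hp, e6] <;>
      first | omega | (repeat' first | assumption | exact hq _ | apply mul_ne_zero)

end Cfsg.Agent.H18.EK
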